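import Cfsg.Agent.Sz.Hig4
import Cfsg.Agent.Be.I
import Cfsg.Agent.H7.Normal
import Cfsg.Prelude.Def_LieRecognition

/-! Suzuki `2`-groups have class two with central involutions (needed by S5214). -/

set_option autoImplicit false

namespace Cfsg.Agent.St

open Subgroup Cfsg.Agent.FT Cfsg.Agent.Sz
open scoped Pointwise commutatorElement

theorem suz_core {P : Type} [Group P] [Finite P] (hP : IsPGroup 2 P) {K : Type} [Group K] [Finite K]
    [IsCyclic K] (φ : K →* MulAut P) {a b : P} (hab : a ≠ b) (a1 : a ≠ 1) (a2 : a * a = 1)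
    (b1 : b ≠ 1) (b2 : b * b = 1)
    (hK : ∀ x y : P, x ≠ 1 → x * x = 1 → y ≠ 1 → y * y = 1 → ∃! k : K, φ k x = y) :
    (∀ u : P, u * u = 1 → ∀ y, u * y = y * u) ∧ ∀ x y : P, ⁅x, y⁆ * ⁅x, y⁆ = 1 := by
  haveI : Fact (Nat.Prime 2) := ⟨Nat.prime_two⟩
  haveI : Nontrivial P := ⟨a, b, hab⟩
  have cen : ∀ u : P, u * u = 1 → ∀ y, u * y = y * u := fun u hu y => by
    by_cases u1 : u = 1
    · simp [u1]
    haveI := hP.center_nontrivial
    obtain ⟨z, hz⟩ := exists_prime_orderOf_dvd_card' (G := center P) 2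
      (((hP.to_subgroup _).card_eq_or_dvd).resolve_left (Finite.one_lt_card.ne'))
    have z2 : orderOf (z : P) = 2 := by rw [Subgroup.orderOf_coe, hz]
    obtain ⟨k, hk, -⟩ := hK z u (Be.ne_one_of_two z2) (Be.sq_of_two z2) u1 hu
    obtain ⟨y, rfl⟩ := (φ k).surjective y
    rw [← hk, ← map_mul, ← map_mul, mem_center_iff.1 z.2 y]
  refine ⟨cen, ?_⟩
  let G := P ⋊[φ] K
  haveI : Finite G := Finite.of_equiv _ SemidirectProduct.equivProd.symm
  let i : P →* G := SemidirectProduct.inl
  have hi : Function.Injective i := SemidirectProduct.inl_injective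
  have ia : ∀ k x, (SemidirectProduct.inr k : G) * i x * (SemidirectProduct.inr k)⁻¹ = i (φ k x) :=
    fun k x => by rw [← map_inv]; exact (SemidirectProduct.inl_aut k x).symm
  let E₀ : Subgroup P := { carrier := {x | x * x = 1}
                           one_mem' := mul_one 1
                           mul_mem' := fun {x y} hx hy => by
                             have hx' : x * x = 1 := hx
                             have hy' : y * y = 1 := hy
                             change x * y * (x * y) = 1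
                             rw [mul_assoc, ← mul_assoc y, ← cen x hx' y, mul_assoc, hy', mul_one, hx']
                           inv_mem' := fun {x} hx => by
                             have hx' : x * x = 1 := hx
                             change x⁻¹ * x⁻¹ = 1
                             rw [← mul_inv_rev, hx', inv_one] }
  have hn : ∀ k : K, (SemidirectProduct.inr k : G) ∈ 𝐍(E₀.map i) := fun k =>
    mem_norm_of_conj_le fun y hy => by
      obtain ⟨_, ⟨x, hx, rfl⟩, rfl⟩ := mem_conj'.1 hy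
      refine ⟨φ k x, ?_, (ia k x).symm⟩
      have hx' : x * x = 1 := hx
      change φ k x * φ k x = 1
      rw [← map_mul, hx', map_one]
  obtain ⟨E, _, _, π, ρ, πm, π0, πs, πρ⟩ := exists_secRep (X := E₀.map i) (Y := ⊥) bot_le
    (comm_eq_bot_iff.2 (by
      rintro _ ⟨x, hx, rfl⟩
      refine mem_cent.2 ?_
      rintro _ ⟨y, -, rfl⟩
      rw [← map_mul, ← map_mul, cen x hx y])).le SemidirectProduct.inr hn
    (fun _ => by rw [norm_bot]; trivial)
  have mi : ∀ x : P, x * x = 1 → i x ∈ E₀.map i := fun x hx => mem_map_of_mem i hx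
  have p1 : π 1 = 0 := (π0 1 (one_mem _)).2 rfl
  have πi : ∀ x y : P, x * x = 1 → y * y = 1 → π (i x) = π (i y) → x = y := fun x y hx hy e => by
    have h1 := πm _ (mi x hx) _ (mi y hy)
    rw [e, ← πm _ (mi y hy) _ (mi y hy), ← map_mul i y, hy, map_one, p1,
      π0 _ (mul_mem (mi x hx) (mi y hy)), mem_bot, ← map_mul, map_eq_one_iff i hi, ← hy] at h1
    exact mul_right_cancel h1
  have φ2 : ∀ k x, x * x = 1 → φ k x * φ k x = 1 := fun k x hx => by rw [← map_mul, hx, map_one]
  have πρ' : ∀ k x, x * x = 1 → ρ k (π (i x)) = π (i (φ k x)) := fun k x hx => by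
    rw [← πρ k _ (mi x hx), ia]
  have πs' : ∀ c, ∃ x : P, x * x = 1 ∧ π (i x) = c := fun c => by
    obtain ⟨_, ⟨x, hx, rfl⟩, e⟩ := πs c
    exact ⟨x, hx, e⟩
  have ne : ∀ x : P, π (i x) ≠ 0 → x ≠ 1 := by rintro x h rfl; exact h (by rw [map_one, p1])
  have hs : π (i a) ≠ 0 := fun h => a1 (πi _ _ a2 (mul_one 1) (by rw [h, map_one, p1]))
  letI : CommGroup K := IsCyclic.commGroup
  obtain ⟨F, _, _, ι, χ, ι1, ιχ⟩ := exists_field ρ (fun a b => by rw [← map_mul, ← map_mul, mul_comm])
    (π (i a)) hs (fun U hU => by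
      rw [or_iff_not_imp_left]
      intro hU0
      obtain ⟨⟨u, hu⟩, u0⟩ := AddSubgroup.ne_bot_iff_exists_ne_zero.1 hU0
      rw [eq_top_iff]
      intro c _
      by_cases hc : c = 0
      · exact hc ▸ U.zero_mem
      obtain ⟨x, hx, rfl⟩ := πs' u
      obtain ⟨y, hy, rfl⟩ := πs' c
      obtain ⟨k, hk, -⟩ := hK x y (ne x fun h => u0 (Subtype.ext h)) hx (ne y hc) hy
      rw [← hk, ← πρ' k x hx]; exact hU k _ hu)
  choose e he πe using fun x : F => πs' (ι x)
  have e_add : ∀ x y, e (x + y) = e x * e y := fun x y =>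
    πi _ _ (he _) (E₀.mul_mem (he x) (he y)) (by
      rw [map_mul, πm _ (mi _ (he _)) _ (mi _ (he _)), πe, πe, πe, map_add])
  have e_inj : Function.Injective e := fun x y h => ι.injective (by rw [← πe, ← πe, h])
  have e_one : e 1 = a := πi _ _ (he _) a2 (by rw [πe, ι1])
  have e0 : e 0 = 1 := by simpa using e_add 0 0
  have eχ : ∀ k x, φ k (e x) = e (χ k * x) := fun k x =>
    πi _ _ (φ2 _ _ (he x)) (he _) (by rw [← πρ' _ _ (he x), πe, πe, ιχ])
  have e_surj : ∀ u : P, u * u = 1 → ∃ x, e x = u := fun u hu =>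
    ⟨ι.symm (π (i u)), πi _ _ (he _) hu (by rw [πe, ι.apply_symm_apply])⟩
  have hχ : Function.Bijective χ := by
    refine ⟨fun k k' h => ?_, fun c => ?_⟩
    · obtain ⟨l, -, hl⟩ := hK a (φ k a) a1 a2 (by simpa using a1) (φ2 _ _ a2)
      rw [hl k rfl, hl k' (by rw [← e_one]; beta_reduce; rw [eχ, eχ, h])]
    · obtain ⟨k, hk, -⟩ := hK a (e c) a1 a2 (fun h => c.ne_zero (e_inj (h.trans e0.symm))) (he c)
      rw [← e_one, eχ, mul_one] at hk
      exact ⟨k, Units.ext (e_inj hk)⟩
  let χ' := (MulEquiv.ofBijective χ hχ).symm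
  have hχ' : ∀ c, χ (χ' c) = c := fun c => (MulEquiv.ofBijective χ hχ).apply_symm_apply c
  have h2 : ∀ x : F, x + x = 0 := fun x => e_inj (by rw [e_add, he, e0])
  let h : Hig i.range F :=
    { e := fun x => i (e x)
      κ := (SemidirectProduct.inr : K →* G).comp χ'.toMonoidHom
      char2 := CharTwo.of_one_ne_zero_of_two_eq_zero one_ne_zero (by rw [← one_add_one_eq_two, h2])
      two := by rw [MonoidHom.range_eq_map]; exact (hP.to_subgroup ⊤).map i
      e_add := fun x y => by rw [e_add, map_mul]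
      e_inj := hi.comp e_inj
      e_mem := fun x => ⟨_, rfl⟩
      e_surj := by
        rintro _ ⟨u, rfl⟩ hu
        rw [← map_mul, map_eq_one_iff i hi] at hu
        obtain ⟨x, rfl⟩ := e_surj u hu
        exact ⟨x, rfl⟩
      e_comm := by rintro x _ ⟨y, rfl⟩; rw [← map_mul, ← map_mul, cen _ (he x) y]
      κ_norm := fun c => mem_norm_of_conj_le fun y hy => by
        obtain ⟨_, ⟨x, rfl⟩, rfl⟩ := mem_conj'.1 hy
        exact ⟨_, (ia _ x).symm⟩
      κ_e := fun c x => (ia _ _).trans (by rw [eχ]; exact congrArg (fun z : Fˣ => i (e (z * x))) (hχ' c))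
      four := by
        classical
        obtain ⟨x, rfl⟩ := e_surj b b2
        have : ({0, 1, x} : Finset F).card = 3 := Finset.card_eq_three.2 ⟨0, 1, x, zero_ne_one,
          by rintro rfl; exact b1 e0, by rintro rfl; exact hab e_one.symm, rfl⟩
        exact this.symm.trans_le (Finset.card_le_univ _) }
  intro x y
  apply hi
  rw [map_mul, map_commutatorElement, map_one]
  rcases h.higman with hc | h4
  · rw [commutatorElement_eq_one_iff_mul_comm.2 (mul_comm_of_comm hc ⟨x, rfl⟩ ⟨y, rfl⟩), mul_one]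
  · exact h.comm_sq h4 ⟨x, rfl⟩ ⟨y, rfl⟩

theorem suz_facts {P : Type*} [Group P] (h : IsSuzukiTwoGroup P) :
    (∀ u : P, u * u = 1 → ∀ y, u * y = y * u) ∧ ∀ x y : P, ⁅x, y⁆ * ⁅x, y⁆ = 1 := by
  obtain ⟨_, hP, -, ⟨a, b, hab, a1, a2, b1, b2⟩, K, hc, hK⟩ := h
  obtain ⟨P', _, _, ⟨e⟩⟩ := Be.exists_small P
  obtain ⟨K', _, _, ⟨f⟩⟩ := Be.exists_small K
  haveI : IsCyclic K' := isCyclic_of_surjective f f.surjective
  have sq : ∀ x : P', x * x = 1 → e.symm x * e.symm x = 1 := fun x hx => by
    rw [← map_mul, hx, map_one]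
  obtain ⟨h1, h2⟩ := suz_core (hP.of_equiv e)
    ((MulAut.congr e).toMonoidHom.comp (K.subtype.comp f.symm.toMonoidHom)) (a := e a) (b := e b)
    (by simpa) (by simpa) (by rw [← map_mul, a2, map_one]) (by simpa) (by rw [← map_mul, b2, map_one])
    (fun x y x1 x2 y1 y2 => by
      obtain ⟨k, hk, hu⟩ := hK (e.symm x) (e.symm y) (by simpa) (sq x x2) (by simpa) (sq y y2)
      refine ⟨f k, by simp [hk], fun k' hk' => ?_⟩
      rw [← hu (f.symm k') (by rw [← hk']; simp), f.apply_symm_apply])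
  refine ⟨fun u hu y => e.injective ?_, fun x y => e.injective ?_⟩
  · rw [map_mul, map_mul, h1 _ (by rw [← map_mul, hu, map_one])]
  · rw [map_mul, map_commutatorElement, h2, map_one]

end Cfsg.Agent.St
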